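import Cfsg.Agent.S3154
import Cfsg.Agent.Lib.SchurMult.Criterion

/-!
A perfect central extension of `PSL₃(4)` with elementary abelian kernel has kernel of order at most four.

A Sylow 2-subgroup of the extension is a product of two elementary abelian subgroups `H`, `K` meeting in a
central subgroup; so its derived subgroup is generated by the commutators of two generators of `H` and two
of `K` modulo `H ⊓ K`, hence has order at most 16, it contains the centre and maps onto a group of order 4.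
-/

set_option autoImplicit false
set_option linter.unusedSectionVars false

namespace CfsgLib.Fischer.PSLThreeFourCover

open scoped commutatorElement
open CfsgLib.InvChar.PSLThreeFour

theorem card_sup_zpowers_le {G : Type*} [Group G] [Finite G] (A : Subgroup G) (c : G) (hc : c * c = 1)
    (hcomm : ∀ a ∈ A, a * c = c * a) :
    Nat.card ↥(A ⊔ Subgroup.zpowers c) ≤ 2 * Nat.card A := by
  classical
  let D : Subgroup G :=
    { carrier := {y | y ∈ A ∨ y * c ∈ A}
      one_mem' := Or.inl (one_mem A)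
      mul_mem' := by
        rintro a b (ha | ha) (hb | hb)
        · exact Or.inl (mul_mem ha hb)
        · exact Or.inr (by rw [mul_assoc]; exact mul_mem ha hb)
        · refine Or.inr ?_
          rw [mul_assoc, hcomm b hb, ← mul_assoc]
          exact mul_mem ha hb
        · refine Or.inl ?_
          have e : c * (b * c) = b := by rw [← hcomm _ hb, mul_assoc, hc, mul_one]
          rw [← e, ← mul_assoc a]
          exact mul_mem ha hb
      inv_mem' := by
        rintro a (ha | ha)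
        · exact Or.inl (inv_mem ha)
        · refine Or.inr ?_
          have e : a⁻¹ * c = (a * c)⁻¹ := by
            rw [mul_inv_rev, inv_eq_of_mul_eq_one_right hc]
            have h := hcomm _ (inv_mem ha)
            rw [mul_inv_rev, inv_eq_of_mul_eq_one_right hc] at h
            calc a⁻¹ * c = c * (c * a⁻¹ * c) := by rw [← mul_assoc, ← mul_assoc, hc, one_mul]
              _ = c * (c * (c * a⁻¹)) := by rw [h]
              _ = c * a⁻¹ := by rw [← mul_assoc c c, hc, one_mul]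
          rw [e]; exact inv_mem ha }
  have hle : A ⊔ Subgroup.zpowers c ≤ D :=
    sup_le (fun a ha => Or.inl ha) ((Subgroup.zpowers_le (g := c) (H := D)).2
      (Or.inr (by rw [hc]; exact one_mem A)))
  refine (Subgroup.card_le_of_le hle).trans ?_
  refine (Nat.card_le_card_of_injective
    (fun y : D => if h : (y : G) ∈ A then ((false, (⟨y, h⟩ : A)) : Bool × A)
      else (true, ⟨(y : G) * c, y.2.resolve_left h⟩)) ?_).trans (by simp)
  intro y z hyz
  dsimp only at hyz
  split_ifs at hyz with h1 h2 h2 <;> simp only [Prod.mk.injEq, Subtype.mk.injEq] at hyz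
  · exact Subtype.ext hyz.2
  · exact absurd hyz.1 Bool.false_ne_true
  · exact absurd hyz.1.symm Bool.false_ne_true
  · exact Subtype.ext (mul_right_cancel hyz.2)

/-- A perfect central extension of `PSL₃(4)` with elementary abelian centre has centre of order at most 4. -/
theorem card_center_le {X : Type*} [Group X] [Finite X] (hq : Cfsg.IsQuasisimple X)
    (hZ : Cfsg.IsElementaryAbelian 2 (Subgroup.center X)) {F : Type*} [Field F] [Fintype F]
    (hF : Fintype.card F = 4)
    (f : X ⧸ Subgroup.center X ≃* Matrix.ProjectiveSpecialLinearGroup (Fin 3) F) :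
    Nat.card (Subgroup.center X) ≤ 4 := by
  classical
  have : Fact (Nat.Prime 2) := ⟨Nat.prime_two⟩
  set Z := Subgroup.center X with hZdef
  obtain ⟨w, hw0, hw1, -, -, h2, hall⟩ := CfsgLib.InvChar.SymThree.four_basis hF
  set φ : X →* Matrix.ProjectiveSpecialLinearGroup (Fin 3) F :=
    f.toMonoidHom.comp (QuotientGroup.mk' Z) with hφ
  have hs : Function.Surjective φ := f.surjective.comp (QuotientGroup.mk'_surjective Z)
  have hker : φ.ker = Z := by
    ext x
    rw [MonoidHom.mem_ker, ← QuotientGroup.eq_one_iff (N := Z)]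
    exact f.map_eq_one_iff
  have hkp : IsPGroup 2 Z := fun z => ⟨1, Subtype.ext (by
    rw [pow_one]; exact hZ.2 z z.2)⟩
  -- the Sylow subgroup and its two elementary subgroups
  have hUp : IsPGroup 2 (U : Subgroup (Matrix.ProjectiveSpecialLinearGroup (Fin 3) F)) :=
    IsPGroup.of_card (n := 6) (by rw [card_U hF]; rfl)
  have hTp : IsPGroup 2 ↥((U : Subgroup (Matrix.ProjectiveSpecialLinearGroup (Fin 3) F)).comap φ) :=
    hUp.comap_of_ker_isPGroup φ (by rw [hker]; exact hkp)
  have hidx : ¬ 2 ∣ ((U : Subgroup (Matrix.ProjectiveSpecialLinearGroup (Fin 3) F)).comap φ).index := by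
    rw [Subgroup.index_comap_of_surjective _ hs]
    intro hd
    have h := Subgroup.card_mul_index (U : Subgroup (Matrix.ProjectiveSpecialLinearGroup (Fin 3) F))
    rw [card_U hF, CfsgLib.InvChar.SymThree.card_PSL_three_four hF] at h
    omega
  let T : Sylow 2 X := hTp.toSylow hidx
  have hT : (T : Subgroup X) = (U : Subgroup (Matrix.ProjectiveSpecialLinearGroup (Fin 3) F)).comap φ :=
    IsPGroup.toSylow_coe _ _
  set H := (A₁ : Subgroup (Matrix.ProjectiveSpecialLinearGroup (Fin 3) F)).comap φ with hH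
  set K := (A₂ : Subgroup (Matrix.ProjectiveSpecialLinearGroup (Fin 3) F)).comap φ with hK
  have hmapel : ∀ (A : Subgroup (Matrix.ProjectiveSpecialLinearGroup (Fin 3) F)),
      (∀ a ∈ A, a ^ 2 = 1) → Nat.card A = 16 →
      Cfsg.IsElementaryAbelian 2 ((A.comap φ).map (QuotientGroup.mk' Z)) ∧
        Nat.card ↥((A.comap φ).map (QuotientGroup.mk' Z)) = 16 := by
    intro A hA hAc
    have e : (A.comap φ).map (QuotientGroup.mk' Z) = A.comap f.toMonoidHom := by
      rw [hφ, ← Subgroup.comap_comap, Subgroup.map_comap_eq_self_of_surjective (QuotientGroup.mk'_surjective Z)]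
    rw [e]
    refine ⟨Cfsg.Agent.S3154.elementary_of_sq fun a ha => f.injective ?_, ?_⟩
    · rw [map_pow, map_one]; exact hA _ ha
    · rw [show A.comap f.toMonoidHom = A.map (f.symm : _ →* X ⧸ Z) from
        Subgroup.comap_equiv_eq_map_symm f A, Subgroup.card_map_of_injective f.symm.injective, hAc]
  have hA1 : ∀ a ∈ (A₁ : Subgroup (Matrix.ProjectiveSpecialLinearGroup (Fin 3) F)), a ^ 2 = 1 := by
    rintro _ ⟨b, d, rfl⟩
    rw [pow_two, ut_mul, ← ut_zero]
    congr 1 <;> first | ring1 | linear_combination b * h2 | linear_combination d * h2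
  have hA2 : ∀ a ∈ (A₂ : Subgroup (Matrix.ProjectiveSpecialLinearGroup (Fin 3) F)), a ^ 2 = 1 := by
    rintro _ ⟨b, d, rfl⟩
    rw [pow_two, ut_mul, ← ut_zero]
    congr 1 <;> first | ring1 | linear_combination b * h2 | linear_combination d * h2
  have hne : H ≠ K := fun e => by
    have hAA := Subgroup.comap_injective hs e
    obtain ⟨a, d, h⟩ : (ut 0 1 0 : Matrix.ProjectiveSpecialLinearGroup (Fin 3) F) ∈ (A₂ : Subgroup _) :=
      hAA ▸ ⟨1, 0, rfl⟩
    exact one_ne_zero (ut_inj h).2.1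
  have hzle : ∀ A : Subgroup (Matrix.ProjectiveSpecialLinearGroup (Fin 3) F), Z ≤ A.comap φ := fun A => by
    rw [← hker]; intro x hx; show φ x ∈ A; rw [MonoidHom.mem_ker.1 hx]; exact one_mem A
  obtain ⟨hHel, hKel, -⟩ := Cfsg.Agent.S3154.result hq hZ hF ⟨f⟩ T H K hne
    (hT ▸ Subgroup.comap_mono A₁_le) (hT ▸ Subgroup.comap_mono A₂_le) (hzle _) (hzle _)
    (hmapel _ hA1 (card_A₁ hF)) (hmapel _ hA2 (card_A₂ hF))
  -- generators
  obtain ⟨h₁, hh₁⟩ := hs (ut 0 1 0)
  obtain ⟨h₂, hh₂⟩ := hs (ut 0 w 0)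
  obtain ⟨k₁, hk₁⟩ := hs (ut 1 0 0)
  obtain ⟨k₂, hk₂⟩ := hs (ut w 0 0)
  have h₁H : h₁ ∈ H := by rw [hH, Subgroup.mem_comap, hh₁]; exact ⟨_, _, rfl⟩
  have h₂H : h₂ ∈ H := by rw [hH, Subgroup.mem_comap, hh₂]; exact ⟨_, _, rfl⟩
  have k₁K : k₁ ∈ K := by rw [hK, Subgroup.mem_comap, hk₁]; exact ⟨_, _, rfl⟩
  have k₂K : k₂ ∈ K := by rw [hK, Subgroup.mem_comap, hk₂]; exact ⟨_, _, rfl⟩
  set S : Set X := ({h₁, h₂, k₁, k₂} : Set X) ∪ ↑(H ⊓ K) with hS
  have hmem : ∀ x, φ x ∈ (U : Subgroup _) → x ∈ Subgroup.closure S := by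
    rintro x ⟨a, b, d, hx⟩
    have gb : ∀ b : F, ∃ y ∈ Subgroup.closure S, φ y = ut 0 b 0 := by
      intro b
      rcases hall b with rfl | rfl | rfl | rfl
      · exact ⟨1, one_mem _, by rw [map_one, ut_zero]⟩
      · exact ⟨h₁, Subgroup.subset_closure (by simp [hS]), hh₁⟩
      · exact ⟨h₂, Subgroup.subset_closure (by simp [hS]), hh₂⟩
      · exact ⟨h₂ * h₁, mul_mem (Subgroup.subset_closure (by simp [hS]))
          (Subgroup.subset_closure (by simp [hS])), by rw [map_mul, hh₁, hh₂, ut_mul]; simp⟩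
    have ga : ∀ b : F, ∃ y ∈ Subgroup.closure S, φ y = ut b 0 0 := by
      intro b
      rcases hall b with rfl | rfl | rfl | rfl
      · exact ⟨1, one_mem _, by rw [map_one, ut_zero]⟩
      · exact ⟨k₁, Subgroup.subset_closure (by simp [hS]), hk₁⟩
      · exact ⟨k₂, Subgroup.subset_closure (by simp [hS]), hk₂⟩
      · exact ⟨k₂ * k₁, mul_mem (Subgroup.subset_closure (by simp [hS]))
          (Subgroup.subset_closure (by simp [hS])), by rw [map_mul, hk₁, hk₂, ut_mul]; simp⟩
    obtain ⟨y, hy, hy'⟩ := gb b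
    obtain ⟨z, hz, hz'⟩ := ga a
    obtain ⟨v, hv⟩ : ∃ v, v = (y * z)⁻¹ * x := ⟨_, rfl⟩
    have hv' : φ v = ut 0 0 d := by
      rw [hv, map_mul, map_inv, map_mul, hy', hz', hx, ut_mul, ut_inv, ut_mul]
      congr 1 <;> ring
    have hx' : x = y * z * v := by rw [hv]; group
    rw [hx']
    refine mul_mem (mul_mem hy hz) (Subgroup.subset_closure (Or.inr ⟨?_, ?_⟩))
    · exact Subgroup.mem_comap.2 (by rw [hv']; exact ⟨_, _, rfl⟩)
    · exact Subgroup.mem_comap.2 (by rw [hv']; exact ⟨_, _, rfl⟩)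
  -- commutation in `H` and `K`
  have hHc : ∀ a ∈ H, ∀ b ∈ H, a * b = b * a := fun a ha b hb =>
    congrArg Subtype.val (isMulCommutative_iff.1 hHel.1 ⟨a, ha⟩ ⟨b, hb⟩)
  have hKc : ∀ a ∈ K, ∀ b ∈ K, a * b = b * a := fun a ha b hb =>
    congrArg Subtype.val (isMulCommutative_iff.1 hKel.1 ⟨a, ha⟩ ⟨b, hb⟩)
  have hSH : ∀ s ∈ S, s ∈ H ∨ s ∈ K := by
    rintro s ((rfl | rfl | rfl | rfl) | hs')
    · exact Or.inl h₁H
    · exact Or.inl h₂H
    · exact Or.inr k₁K
    · exact Or.inr k₂K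
    · exact Or.inl hs'.1
  have hcen : ∀ u ∈ H ⊓ K, ∀ x ∈ Subgroup.closure S, x * u = u * x := by
    intro u hu x hx
    refine Subgroup.mem_centralizer_singleton_iff.1 ((Subgroup.closure_le
      (K := Subgroup.centralizer ({u} : Set X))).2 ?_ hx)
    intro s hs'
    refine Subgroup.mem_centralizer_singleton_iff.2 ?_
    rcases hSH s hs' with h | h
    · exact hHc s h u hu.1
    · exact hKc s h u hu.2
  have hcHK : ∀ h ∈ H, ∀ k ∈ K, ⁅h, k⁆ ∈ H ⊓ K := by
    rintro h ⟨b, d, hb⟩ k ⟨a, d', ha⟩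
    have e : φ ⁅h, k⁆ = ut 0 0 (a * b) := by
      rw [map_commutatorElement, hb, ha, commutatorElement_def, ut_inv, ut_inv, ut_mul, ut_mul, ut_mul]
      congr 1 <;> first | ring1 | linear_combination (-(a * b)) * h2 | linear_combination (a * b) * h2
    exact ⟨⟨0, a * b, e⟩, ⟨0, a * b, e⟩⟩
  have hsq : ∀ h ∈ H, ∀ k ∈ K, ⁅h, k⁆ * ⁅h, k⁆ = 1 := by
    intro h hh k hk
    rw [← pow_two]; exact hHel.2 _ (hcHK h hh k hk).1
  -- the bound on the derived subgroup
  set C : Subgroup X := (((Subgroup.zpowers ⁅h₁, k₁⁆ ⊔ Subgroup.zpowers ⁅h₁, k₂⁆) ⊔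
    Subgroup.zpowers ⁅h₂, k₁⁆) ⊔ Subgroup.zpowers ⁅h₂, k₂⁆) with hC
  have hCle : C ≤ H ⊓ K := sup_le (sup_le (sup_le
    (Subgroup.zpowers_le.2 (hcHK _ h₁H _ k₁K)) (Subgroup.zpowers_le.2 (hcHK _ h₁H _ k₂K)))
    (Subgroup.zpowers_le.2 (hcHK _ h₂H _ k₁K))) (Subgroup.zpowers_le.2 (hcHK _ h₂H _ k₂K))
  have hCcard : Nat.card C ≤ 16 := by
    have hc1 : Nat.card (Subgroup.zpowers ⁅h₁, k₁⁆) ≤ 2 := by
      rw [Nat.card_zpowers]
      exact Nat.le_of_dvd two_pos (orderOf_dvd_of_pow_eq_one (by rw [pow_two]; exact hsq _ h₁H _ k₁K))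
    have hstep : ∀ (A : Subgroup X), A ≤ H ⊓ K → ∀ h ∈ H, ∀ k ∈ K,
        Nat.card ↥(A ⊔ Subgroup.zpowers ⁅h, k⁆) ≤ 2 * Nat.card A := fun A hA h hh k hk =>
      card_sup_zpowers_le A _ (hsq h hh k hk) fun a ha => hHc a (hA ha).1 _ (hcHK h hh k hk).1
    have l1 : Subgroup.zpowers ⁅h₁, k₁⁆ ≤ C := le_sup_left.trans (le_sup_left.trans le_sup_left)
    have s1 := hstep _ (l1.trans hCle) _ h₁H _ k₂K
    have s2 := hstep _ ((le_sup_left.trans le_sup_left).trans hCle) _ h₂H _ k₁K
    have s3 := hstep _ (le_sup_left.trans hCle) _ h₂H _ k₂K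
    rw [hC]
    omega
  have hgen : ∀ s ∈ S, ∀ t ∈ S, ⁅s, t⁆ ∈ C := by
    have hone : ∀ s t : X, s * t = t * s → ⁅s, t⁆ ∈ C := fun s t h => by
      rw [commutatorElement_eq_one_iff_mul_comm.2 h]; exact one_mem C
    have hrev : ∀ s t : X, ⁅s, t⁆ ∈ C → ⁅t, s⁆ ∈ C := fun s t h => by
      rw [← commutatorElement_inv]; exact inv_mem h
    have hmix : ∀ s t : X, (s = h₁ ∨ s = h₂) → (t = k₁ ∨ t = k₂) → ⁅s, t⁆ ∈ C := by
      rintro s t (rfl | rfl) (rfl | rfl)
      · exact Subgroup.mem_sup_left (Subgroup.mem_sup_left (Subgroup.mem_sup_left (Subgroup.mem_zpowers _)))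
      · exact Subgroup.mem_sup_left (Subgroup.mem_sup_left (Subgroup.mem_sup_right (Subgroup.mem_zpowers _)))
      · exact Subgroup.mem_sup_left (Subgroup.mem_sup_right (Subgroup.mem_zpowers _))
      · exact Subgroup.mem_sup_right (Subgroup.mem_zpowers _)
    intro s hs' t ht'
    rcases hs' with hs' | hs'
    swap
    · exact hone s t ((hcen s hs' t (Subgroup.subset_closure ht')).symm)
    rcases ht' with ht' | ht'
    swap
    · exact hone s t (hcen t ht' s (Subgroup.subset_closure (Or.inl hs')))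
    rcases hs' with rfl | rfl | rfl | rfl <;> rcases ht' with rfl | rfl | rfl | rfl <;>
      first
        | exact hone _ _ (hHc _ (by assumption) _ (by assumption))
        | exact hone _ _ (hKc _ (by assumption) _ (by assumption))
        | exact hmix _ _ (by simp) (by simp)
        | exact hrev _ _ (hmix _ _ (by simp) (by simp))
  have hcomm : ∀ x ∈ Subgroup.closure S, ∀ y ∈ Subgroup.closure S, ⁅x, y⁆ ∈ C := by
    have hmulL : ∀ x x' y : X, x ∈ Subgroup.closure S → ⁅x, y⁆ ∈ C → ⁅x', y⁆ ∈ C →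
        ⁅x * x', y⁆ ∈ C := by
      intro x x' y hx h h'
      have e : ⁅x * x', y⁆ = x * ⁅x', y⁆ * x⁻¹ * ⁅x, y⁆ := by simp only [commutatorElement_def]; group
      rw [e, hcen _ (hCle h') x hx, mul_inv_cancel_right]
      exact mul_mem h' h
    have hinvL : ∀ x y : X, x ∈ Subgroup.closure S → ⁅x, y⁆ ∈ C → ⁅x⁻¹, y⁆ ∈ C := by
      intro x y hx h
      have e : ⁅x⁻¹, y⁆ = x⁻¹ * ⁅x, y⁆⁻¹ * x := by simp only [commutatorElement_def]; group
      rw [e, hcen _ (hCle (inv_mem h)) _ (inv_mem hx), inv_mul_cancel_right]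
      exact inv_mem h
    have h1 : ∀ y ∈ S, ∀ x ∈ Subgroup.closure S, ⁅x, y⁆ ∈ C := by
      intro y hy x hx
      induction hx using Subgroup.closure_induction with
      | mem x hx => exact hgen x hx y hy
      | one => rw [commutatorElement_one_left]; exact one_mem C
      | mul a b ha hb iha ihb => exact hmulL a b y ha iha ihb
      | inv a ha iha => exact hinvL a y ha iha
    intro x hx y hy
    induction hx using Subgroup.closure_induction with
    | mem x hx => rw [← commutatorElement_inv]; exact inv_mem (h1 x hx y hy)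
    | one => rw [commutatorElement_one_left]; exact one_mem C
    | mul a b ha hb iha ihb => exact hmulL a b y ha iha ihb
    | inv a ha iha => exact hinvL a y ha iha
  have hTC : ⁅(T : Subgroup X), (T : Subgroup X)⁆ ≤ C := Subgroup.commutator_le.2 fun x hx y hy =>
    hcomm x (hmem x (hT.le hx)) y (hmem y (hT.le hy))
  have hZC : Z ≤ C := by
    intro z hz
    have hper : z ∈ _root_.commutator X := by rw [(Group.isPerfect_def.1 hq.1)]; trivial
    have h := CfsgLib.SchurMult.pow_index_mem_commutator (T : Subgroup X) hz hper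
    obtain ⟨m, hm⟩ := Nat.odd_iff.2 (Nat.two_dvd_ne_zero.1 T.not_dvd_index)
    rw [hm, pow_add, pow_one, pow_mul, hZ.2 z hz, one_pow, one_mul] at h
    exact hTC h
  -- counting
  let ψ : C →* Matrix.ProjectiveSpecialLinearGroup (Fin 3) F := φ.comp C.subtype
  have hψ : Nat.card ψ.ker = Nat.card Z := Nat.card_congr
    { toFun := fun x => ⟨x.1.1, hker ▸ (x.2 : φ x.1.1 = 1)⟩
      invFun := fun z => ⟨⟨z.1, hZC z.2⟩, (MonoidHom.mem_ker).1 (hker.ge z.2)⟩
      left_inv := fun x => rfl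
      right_inv := fun x => rfl }
  have hrange : 3 ≤ Nat.card ψ.range := by
    have hval : ∀ h k : X, ∀ a b : F, φ h = ut 0 b 0 → φ k = ut a 0 0 → φ ⁅h, k⁆ = ut 0 0 (a * b) := by
      intro h k a b hh hk
      rw [map_commutatorElement, hh, hk, commutatorElement_def, ut_inv, ut_inv, ut_mul, ut_mul, ut_mul]
      congr 1 <;> first | ring1 | linear_combination (-(a * b)) * h2 | linear_combination (a * b) * h2
    have m1 : ut (0 : F) 0 1 ∈ ψ.range :=
      ⟨⟨⁅h₁, k₁⁆, Subgroup.mem_sup_left (Subgroup.mem_sup_left (Subgroup.mem_sup_left (Subgroup.mem_zpowers _)))⟩,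
        (hval _ _ _ _ hh₁ hk₁).trans (by rw [one_mul])⟩
    have m2 : ut (0 : F) 0 w ∈ ψ.range :=
      ⟨⟨⁅h₁, k₂⁆, Subgroup.mem_sup_left (Subgroup.mem_sup_left (Subgroup.mem_sup_right (Subgroup.mem_zpowers _)))⟩,
        (hval _ _ _ _ hh₁ hk₂).trans (by rw [mul_one])⟩
    have hne3 : ∀ p q : F, p ≠ q →
        (ut 0 0 p : Matrix.ProjectiveSpecialLinearGroup (Fin 3) F) ≠ ut 0 0 q := fun p q hpq e =>
      hpq (ut_inj e).2.2
    refine le_trans (le_of_eq (Set.ncard_eq_three.2
      ⟨ut 0 0 0, ut 0 0 1, ut 0 0 w, hne3 _ _ zero_ne_one, hne3 _ _ hw0.symm, hne3 _ _ hw1.symm, rfl⟩).symm)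
      (Set.ncard_le_ncard ?_ (Set.toFinite _))
    rintro p (rfl | rfl | rfl)
    · rw [ut_zero]; exact one_mem _
    · exact m1
    · exact m2
  have hprod : Nat.card Z * Nat.card ψ.range ≤ 16 := by
    rw [← hψ, ← Subgroup.index_ker, Subgroup.card_mul_index]
    exact hCcard
  obtain ⟨n, hn⟩ := IsPGroup.iff_card.1 hkp
  have h5 : Nat.card Z * 3 ≤ 16 := (Nat.mul_le_mul_left _ hrange).trans hprod
  by_contra hlt
  have h8 : 2 ^ 2 < 2 ^ n := by rw [← hn]; omega
  have h3 : 2 < n := (Nat.pow_lt_pow_iff_right one_lt_two).1 h8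
  have : 2 ^ 3 ≤ 2 ^ n := Nat.pow_le_pow_right two_pos h3
  omega

end CfsgLib.Fischer.PSLThreeFourCover
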